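import Mathlib
import Cfsg.Agent.S2231
import Cfsg.Agent.Lib.Helper5.Qd9
import Cfsg.Agent.Lib.Helper1.CoprimeSylow

set_option autoImplicit false
set_option linter.unusedSimpArgs false

/-! `p`-subgroups of alternating groups of small degree are abelian; `Qd(p)` embeds in `A_n` for
`n ≥ p²`. -/

namespace Cfsg.Agent.Lib.Helper5.AltP

open Cfsg.Agent.S2231 Cfsg.Agent.Lib.Helper5.Dk

/-- a `p`-group acting faithfully on fewer than `p²` points is commutative -/
theorem comm_of_card_lt {p : ℕ} [hp : Fact p.Prime] {α : Type*} [Finite α] (hn : Nat.card α < p ^ 2)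
    {P : Type*} [Group P] [Finite P] [MulAction P α] [FaithfulSMul P α] (hP : IsPGroup p P)
    (x y : P) : x * y = y * x := by
  have key : ∀ a : α, (x * y * x⁻¹ * y⁻¹) • a = a := by
    intro a
    set H := MulAction.stabilizer P a with hH
    obtain ⟨k, hk⟩ := hP.index H
    have h1 : H.index ≤ Nat.card α := by
      rw [hH, MulAction.index_stabilizer]
      exact Nat.card_le_card_of_injective _ Subtype.val_injective
    have hk1 : k < 2 := by
      rw [hk] at h1
      exact (Nat.pow_lt_pow_iff_right hp.out.one_lt).mp (lt_of_le_of_lt h1 hn)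
    show x * y * x⁻¹ * y⁻¹ ∈ H
    interval_cases k
    · rw [pow_zero, Subgroup.index_eq_one] at hk
      rw [hk]; trivial
    · rw [pow_one] at hk
      have hnorm : H.Normal := by
        apply Subgroup.normal_of_index_eq_minFac_card
        obtain ⟨m, hm⟩ := hP.exists_card_eq
        have hm0 : m ≠ 0 := by
          rintro rfl
          rw [pow_zero] at hm
          have := H.index_dvd_card
          rw [hm, hk] at this
          exact hp.out.one_lt.ne' (Nat.dvd_one.mp this)
        rw [hk, hm, hp.out.pow_minFac hm0]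
      have hc : Nat.card (P ⧸ H) = p := hk
      have hcyc : IsCyclic (P ⧸ H) := isCyclic_of_prime_card hc
      have hcomm : ∀ u v : P ⧸ H, u * v = v * u := fun u v => hcyc.isMulCommutative.is_comm.comm u v
      rw [← QuotientGroup.eq_one_iff]
      have := hcomm (x : P ⧸ H) (y : P ⧸ H)
      rw [QuotientGroup.mk_mul, QuotientGroup.mk_mul, QuotientGroup.mk_mul, QuotientGroup.mk_inv,
        QuotientGroup.mk_inv, this]
      group
  have h2 : x * y * x⁻¹ * y⁻¹ = 1 := by
    apply FaithfulSMul.eq_of_smul_eq_smul (α := α)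
    intro a
    rw [key a, one_smul]
  calc x * y = (x * y * x⁻¹ * y⁻¹) * (y * x) := by group
    _ = y * x := by rw [h2, one_mul]

theorem abP_alt {p n : ℕ} [hp : Fact p.Prime] (hn : n < p ^ 2) :
    AbP p (alternatingGroup (Fin n)) := by
  intro S hS x hx y hy
  have : FaithfulSMul ↥S (Fin n) := by
    constructor
    intro u v huv
    apply Subtype.ext
    apply Subtype.ext
    ext a
    exact congrArg Fin.val (huv a)
  have h := comm_of_card_lt (p := p) (α := Fin n) (by simpa using hn) hS ⟨x, hx⟩ ⟨y, hy⟩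
  exact congrArg Subtype.val h

/-- `AbP` goes down along injective homomorphisms -/
theorem abP_of_injective {p : ℕ} [Fact p.Prime] {G H : Type*} [Group G] [Group H]
    (f : H →* G) (hf : Function.Injective f) (h : AbP p G) : AbP p H := by
  intro S hS x hx y hy
  apply hf
  rw [map_mul, map_mul]
  exact h (S.map f) (hS.map f) _ ⟨x, hx, rfl⟩ _ ⟨y, hy, rfl⟩

open scoped Pointwise in
theorem exists_conj_le {p : ℕ} [Fact p.Prime] {G : Type*} [Group G] [Finite G] {Q : Subgroup G}
    (hQ : IsPGroup p Q) (S : Sylow p G) : ∃ g : G, ∀ z ∈ Q, g * z * g⁻¹ ∈ S := by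
  obtain ⟨R, hR⟩ := hQ.exists_le_sylow
  obtain ⟨g, hg⟩ := MulAction.exists_smul_eq G R S
  refine ⟨g, fun z hz => ?_⟩
  rw [← hg]
  show g * z * g⁻¹ ∈ (MulAut.conj g • (R : Subgroup G))
  exact Subgroup.smul_mem_pointwise_smul z (MulAut.conj g) R (hR hz)

/-- a Sylow subgroup being commutative gives `AbP` -/
theorem abP_of_sylow {p : ℕ} [Fact p.Prime] {G : Type*} [Group G] [Finite G] (S : Sylow p G)
    (h : ∀ x ∈ S, ∀ y ∈ S, x * y = y * x) : AbP p G := by
  intro Q hQ x hx y hy
  obtain ⟨g, hg⟩ := Cfsg.Agent.Lib.Helper5.AltP.exists_conj_le hQ S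
  have := h _ (hg x hx) _ (hg y hy)
  have h2 : g * (x * y) * g⁻¹ = g * (y * x) * g⁻¹ := by
    calc g * (x * y) * g⁻¹ = (g * x * g⁻¹) * (g * y * g⁻¹) := by group
      _ = (g * y * g⁻¹) * (g * x * g⁻¹) := this
      _ = g * (y * x) * g⁻¹ := by group
  exact mul_left_cancel (mul_right_cancel h2)

/-- a group with a core-free subgroup of index at most `n` and without subgroups of index two embeds
in the alternating group of degree `n` -/
theorem exists_alt_embedding {X : Type*} [Group X] [Finite X] (L : Subgroup X)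
    (hcore : ∀ x, (∀ g : X, g * x * g⁻¹ ∈ L) → x = 1) {n : ℕ} (hn : L.index ≤ n)
    (hsign : ∀ f : X →* ℤˣ, ∀ x, f x = 1) :
    ∃ ψ : X →* alternatingGroup (Fin n), Function.Injective ψ := by
  classical
  have hφ : Function.Injective (MulAction.toPermHom X (X ⧸ L)) := by
    rw [injective_iff_map_eq_one]
    intro x hx
    apply hcore
    intro g
    have h1 : (MulAction.toPermHom X (X ⧸ L) x) ((g⁻¹ : X) : X ⧸ L) = ((g⁻¹ : X) : X ⧸ L) := by
      rw [hx]; rfl
    have h2 : ((x * g⁻¹ : X) : X ⧸ L) = ((g⁻¹ : X) : X ⧸ L) := h1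
    rw [eq_comm, QuotientGroup.eq] at h2
    simpa [mul_assoc] using h2
  have : Fintype (X ⧸ L) := Fintype.ofFinite _
  obtain ⟨ι⟩ : Nonempty ((X ⧸ L) ↪ Fin n) := by
    apply Function.Embedding.nonempty_of_card_le
    rw [Fintype.card_fin, ← Nat.card_eq_fintype_card]
    exact hn
  let ψ₀ : X →* Equiv.Perm (Fin n) :=
    (Equiv.Perm.viaEmbeddingHom ι).comp (MulAction.toPermHom X (X ⧸ L))
  have hψ₀ : Function.Injective ψ₀ := (Equiv.Perm.viaEmbeddingHom_injective ι).comp hφ
  refine ⟨ψ₀.codRestrict (alternatingGroup (Fin n))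
    (fun x => Equiv.Perm.mem_alternatingGroup.mpr (hsign (Equiv.Perm.sign.comp ψ₀) x)), ?_⟩
  intro x y hxy
  exact hψ₀ (congrArg Subtype.val hxy)

theorem units_eq_one_of_pow {p : ℕ} [hp : Fact p.Prime] (hp2 : p ≠ 2) {u : ℤˣ} (h : u ^ p = 1) :
    u = 1 := by
  rcases Int.units_eq_one_or u with h1 | h1
  · exact h1
  · rw [h1, (hp.out.odd_of_ne_two hp2).neg_one_pow] at h
    exact absurd h (by decide)

section qd

variable {p : ℕ} [hpF : Fact p.Prime] {X : Type*} [Group X] (C : QdC p X)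

/-- the linear complement -/
def lsub : Subgroup X where
  carrier := {x | ∃ A, x = C.m A 0 0}
  mul_mem' := by
    rintro _ _ ⟨A, rfl⟩ ⟨B, rfl⟩
    refine ⟨A * B, ?_⟩
    rw [C.mul]
    apply C.m_congr rfl <;> simp
  one_mem' := ⟨1, C.one.symm⟩
  inv_mem' := by
    rintro _ ⟨A, rfl⟩
    refine ⟨A⁻¹, ?_⟩
    rw [C.inv]
    apply C.m_congr rfl <;> simp

theorem lsub_core (x : X) (h : ∀ g : X, g * x * g⁻¹ ∈ lsub C) : x = 1 := by
  obtain ⟨A, hA⟩ : x ∈ lsub C := by simpa using h 1
  subst hA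
  have key : ∀ c d : ZMod p, al A * c + be A * d = c ∧ ga A * c + de A * d = d := by
    intro c d
    obtain ⟨B, hB⟩ := h (C.m 1 (-c) (-d))
    rw [C.inv, C.mul, C.mul] at hB
    obtain ⟨-, h1, h2⟩ := C.inj hB
    simp at h1 h2
    constructor
    · linear_combination h1
    · linear_combination h2
  have h10 := key 1 0
  have h01 := key 0 1
  rw [← C.one]
  apply C.m_congr _ rfl rfl
  apply ext'
  · simpa using h10.1
  · simpa using h01.1
  · simpa using h10.2
  · simpa using h01.2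

theorem lsub_index_le [Finite X] : (lsub C).index ≤ p ^ 2 := by
  have h1 : Function.Surjective (fun t : ZMod p × ZMod p => ((C.m 1 t.1 t.2 : X) : X ⧸ lsub C)) := by
    intro q
    obtain ⟨x, rfl⟩ := QuotientGroup.mk_surjective q
    obtain ⟨A, a, b, rfl⟩ := C.surj x
    refine ⟨(a, b), ?_⟩
    rw [QuotientGroup.eq]
    refine ⟨A, ?_⟩
    rw [C.inv, C.mul]
    apply C.m_congr <;> simp
  have h2 := Nat.card_le_card_of_surjective _ h1
  rw [Nat.card_prod, Nat.card_zmod] at h2
  rw [pow_two]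
  exact h2

include C in
theorem hom_units_trivial (hp2 : p ≠ 2) (f : X →* ℤˣ) (x : X) : f x = 1 := by
  obtain ⟨A, a, b, rfl⟩ := C.surj x
  have e : C.m A a b = C.m 1 a b * C.m A 0 0 := by
    rw [C.mul]
    apply C.m_congr <;> simp
  have h1 : f (C.m 1 a b) = 1 := by
    apply units_eq_one_of_pow hp2
    rw [← map_pow, C.trans_pow, ← map_one f, ← C.one]
    congr 1
    apply C.m_congr rfl <;> simp
  let g : S2 (ZMod p) →* ℤˣ := MonoidHom.mk' (fun A => f (C.m A 0 0)) (by
    intro A B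
    rw [← map_mul, C.mul]
    congr 1
    apply C.m_congr rfl <;> simp)
  have h2 : g.ker = ⊤ := by
    rw [eq_top_iff, ← closure_zmod p (one_ne_zero) (one_ne_zero), Subgroup.closure_le]
    rintro _ (rfl | rfl)
    · show g (xx 1) = 1
      apply units_eq_one_of_pow hp2
      rw [← map_pow, xx_pow]
      simp [xx_zero]
    · show g (yy 1) = 1
      apply units_eq_one_of_pow hp2
      rw [← map_pow, yy_pow]
      simp [yy_zero]
  have h3 : g A = 1 := by
    have : A ∈ g.ker := by rw [h2]; trivial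
    exact this
  rw [e, map_mul, h1, one_mul]
  exact h3

include C in
theorem exists_embedding [Finite X] (hp2 : p ≠ 2) {n : ℕ} (hn : p ^ 2 ≤ n) :
    ∃ ψ : X →* alternatingGroup (Fin n), Function.Injective ψ :=
  exists_alt_embedding (lsub C) (lsub_core C) ((lsub_index_le C).trans hn) (hom_units_trivial C hp2)

end qd

theorem isPGroup_zpowers {G : Type*} [Group G] {p k : ℕ} {a : G} (h : a ^ p ^ k = 1) :
    IsPGroup p (Subgroup.zpowers a) := by
  rintro ⟨z, hz⟩
  obtain ⟨j, rfl⟩ := Subgroup.mem_zpowers_iff.mp hz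
  refine ⟨k, Subtype.ext ?_⟩
  show (a ^ j) ^ p ^ k = 1
  rw [← zpow_natCast, ← zpow_mul, mul_comm, zpow_mul, zpow_natCast, h, one_zpow]

theorem not_abP_two {G : Type*} [Group G] [Finite G] {x y : G} (hx : x ^ 2 = 1) (hy : y ^ 2 = 1)
    (hxy : (x * y) ^ 4 = 1) (hne : x * y ≠ y * x) : ¬ AbP 2 G := by
  intro h
  have hxi : x⁻¹ = x := by
    rw [inv_eq_iff_mul_eq_one, ← pow_two]; exact hx
  have hyi : y⁻¹ = y := by
    rw [inv_eq_iff_mul_eq_one, ← pow_two]; exact hy
  have hconj : x * (x * y) * x⁻¹ = (x * y)⁻¹ := by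
    rw [mul_inv_rev, hxi, hyi, ← mul_assoc, ← pow_two, hx, one_mul]
  have hN : Subgroup.zpowers x ≤ Subgroup.normalizer (Subgroup.zpowers (x * y) : Set G) := by
    rw [Subgroup.zpowers_le]
    apply Cfsg.Agent.Lib.Helper1.mem_normalizer_of_conj_mem
    intro u hu
    obtain ⟨j, rfl⟩ := Subgroup.mem_zpowers_iff.mp hu
    rw [← conj_zpow, hconj]
    exact Subgroup.zpow_mem _ (Subgroup.inv_mem _ (Subgroup.mem_zpowers _)) _
  have hP : IsPGroup 2 (Subgroup.zpowers x ⊔ Subgroup.zpowers (x * y) : Subgroup G) :=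
    IsPGroup.to_sup_of_normal_right' (isPGroup_zpowers (k := 1) (by simpa using hx))
      (isPGroup_zpowers (k := 2) (by simpa using hxy)) hN
  have h1 := h _ hP x (Subgroup.mem_sup_left (Subgroup.mem_zpowers _)) (x * y)
    (Subgroup.mem_sup_right (Subgroup.mem_zpowers _))
  apply hne
  rw [mul_assoc] at h1
  exact mul_left_cancel h1

theorem sign_viaEmbeddingHom {α β : Type*} [Fintype α] [DecidableEq α] [Fintype β] [DecidableEq β]
    (ι : α ↪ β) (e : Equiv.Perm α) :
    Equiv.Perm.sign (Equiv.Perm.viaEmbeddingHom ι e) = Equiv.Perm.sign e := by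
  rw [Equiv.Perm.viaEmbeddingHom_apply]
  unfold Equiv.Perm.viaEmbedding
  exact @Equiv.Perm.sign_extendDomain _ _ _ _ _ _ _ _ (fun _ => Classical.propDecidable _) _

theorem not_abP_alt_two {n : ℕ} (hn : 6 ≤ n) : ¬ AbP 2 (alternatingGroup (Fin n)) := by
  let x₀ : Equiv.Perm (Fin 6) := Equiv.swap 0 1 * Equiv.swap 2 3
  let y₀ : Equiv.Perm (Fin 6) := Equiv.swap 0 2 * Equiv.swap 4 5
  let Ψ := Equiv.Perm.viaEmbeddingHom (Fin.castLEEmb hn)
  have hΨ : Function.Injective Ψ := Equiv.Perm.viaEmbeddingHom_injective _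
  have sx : Equiv.Perm.sign x₀ = 1 := by decide
  have sy : Equiv.Perm.sign y₀ = 1 := by decide
  have hx : Ψ x₀ ∈ alternatingGroup (Fin n) := by
    rw [Equiv.Perm.mem_alternatingGroup, sign_viaEmbeddingHom, sx]
  have hy : Ψ y₀ ∈ alternatingGroup (Fin n) := by
    rw [Equiv.Perm.mem_alternatingGroup, sign_viaEmbeddingHom, sy]
  apply not_abP_two (x := ⟨Ψ x₀, hx⟩) (y := ⟨Ψ y₀, hy⟩)
  · apply Subtype.ext
    show (Ψ x₀) ^ 2 = 1
    rw [← map_pow, show x₀ ^ 2 = 1 by decide, map_one]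
  · apply Subtype.ext
    show (Ψ y₀) ^ 2 = 1
    rw [← map_pow, show y₀ ^ 2 = 1 by decide, map_one]
  · apply Subtype.ext
    show (Ψ x₀ * Ψ y₀) ^ 4 = 1
    rw [← map_mul, ← map_pow, show (x₀ * y₀) ^ 4 = 1 by decide, map_one]
  · intro h
    have h1 : Ψ x₀ * Ψ y₀ = Ψ y₀ * Ψ x₀ := congrArg Subtype.val h
    rw [← map_mul, ← map_mul] at h1
    exact absurd (hΨ h1) (by decide)

end Cfsg.Agent.Lib.Helper5.AltP
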