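import Mathlib
import Cfsg.Agent.Lib.Helper5.AltP

set_option autoImplicit false
set_option linter.unusedSimpArgs false

/-! A small group acting on many points centralizes a large symmetric group of permutations. -/

namespace Cfsg.Agent.Lib.Helper5.AltC

open Cfsg.Agent.Lib.Helper5.AltP

/-- the diagonal homomorphism `Perm β → Perm (α × β)` -/
def diagHom (α β : Type*) : Equiv.Perm β →* Equiv.Perm (α × β) :=
  MonoidHom.mk' (fun σ => Equiv.prodCongrRight (fun _ => σ)) (by
    intro σ τ
    ext ⟨a, b⟩ <;> rfl)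

theorem diagHom_apply {α β : Type*} (σ : Equiv.Perm β) (a : α) (b : β) :
    diagHom α β σ (a, b) = (a, σ b) := rfl

theorem exists_points {m r : ℕ} {H : Type*} [Group H] [Finite H] [MulAction H (Fin m)]
    (hm : Nat.card H * (2 ^ Nat.card H * (r + 1)) ≤ m) :
    ∃ (U : Subgroup H) (a : Fin r → Fin m), (∀ i, MulAction.stabilizer H (a i) = U) ∧
      ∀ i j, a j ∈ MulAction.orbit H (a i) → i = j := by
  classical
  have : Fintype H := Fintype.ofFinite H
  let Q := MulAction.orbitRel.Quotient H (Fin m)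
  have : Fintype Q := Fintype.ofFinite Q
  have hsurj : Function.Surjective (fun t : H × Q => t.1 • t.2.out) := by
    intro z
    have h1 : (Quotient.mk'' z : Q).out ∈ MulAction.orbit H z := by
      have := Quotient.out_eq' (Quotient.mk'' z : Q)
      exact Quotient.exact' this
    obtain ⟨h, hh⟩ := h1
    refine ⟨(h⁻¹, Quotient.mk'' z), ?_⟩
    show h⁻¹ • (Quotient.mk'' z : Q).out = z
    rw [← hh, inv_smul_smul]
  have hc1 : m ≤ Nat.card H * Fintype.card Q := by
    have := Fintype.card_le_of_surjective _ hsurj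
    rw [Fintype.card_fin, Fintype.card_prod, ← Nat.card_eq_fintype_card] at this
    exact this
  have hHpos : 0 < Nat.card H := Nat.card_pos
  have hc2 : 2 ^ Nat.card H * (r + 1) ≤ Fintype.card Q :=
    Nat.le_of_mul_le_mul_left (hm.trans hc1) hHpos
  obtain ⟨y, hy⟩ := Fintype.exists_le_card_fiber_of_mul_le_card
    (fun q : Q => ((MulAction.stabilizer H q.out : Subgroup H) : Set H)) (n := r + 1) (by
      rw [Fintype.card_set, ← Nat.card_eq_fintype_card]; exact hc2)
  obtain ⟨q₀, hq₀⟩ : (Finset.univ.filter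
      (fun q : Q => ((MulAction.stabilizer H q.out : Subgroup H) : Set H) = y)).Nonempty := by
    rw [← Finset.card_pos]; omega
  rw [Finset.mem_filter] at hq₀
  obtain ⟨j⟩ : Nonempty (Fin r ↪
      {q : Q // ((MulAction.stabilizer H q.out : Subgroup H) : Set H) = y}) := by
    apply Function.Embedding.nonempty_of_card_le
    rw [Fintype.card_fin, Fintype.card_subtype]
    omega
  refine ⟨MulAction.stabilizer H q₀.out, fun i => (j i).1.out, ?_, ?_⟩
  · intro i
    apply SetLike.coe_injective
    rw [(j i).2, hq₀.2]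
  · intro i i' h
    apply j.injective
    apply Subtype.ext
    have h2 : (Quotient.mk'' (j i').1.out : Q) = Quotient.mk'' (j i).1.out := Quotient.sound' h
    rw [Quotient.out_eq', Quotient.out_eq'] at h2
    exact h2.symm

theorem exists_centralizing_hom {m r : ℕ} {H : Type*} [Group H] [Finite H] [MulAction H (Fin m)]
    (hm : Nat.card H * (2 ^ Nat.card H * (r + 1)) ≤ m) :
    ∃ Ψ : Equiv.Perm (Fin r) →* Equiv.Perm (Fin m), Function.Injective Ψ ∧
      (∀ σ, Equiv.Perm.sign σ = 1 → Equiv.Perm.sign (Ψ σ) = 1) ∧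
      ∀ σ (h : H) z, Ψ σ (h • z) = h • Ψ σ z := by
  classical
  obtain ⟨U, a, hU, hdist⟩ := exists_points (r := r) hm
  have hout : ∀ (h : H) (x : H ⧸ U) (i : Fin r), (h • x).out • a i = h • x.out • a i := by
    intro h x i
    have e : h • x = ((h * x.out : H) : H ⧸ U) := by
      conv_lhs => rw [← QuotientGroup.out_eq' x]
      rfl
    obtain ⟨u, hu⟩ := QuotientGroup.mk_out_eq_mul U (h * x.out)
    rw [e, hu, mul_smul, mul_smul]
    have : (u : H) • a i = a i := by
      have h1 : (u : H) ∈ MulAction.stabilizer H (a i) := by rw [hU]; exact u.2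
      exact h1
    rw [this]
  let ι : (H ⧸ U) × Fin r ↪ Fin m := ⟨fun t => t.1.out • a t.2, by
    rintro ⟨x, i⟩ ⟨y, j⟩ h
    simp only at h
    have hij : i = j := by
      apply hdist
      refine ⟨y.out⁻¹ * x.out, ?_⟩
      show (y.out⁻¹ * x.out) • a i = a j
      rw [mul_smul, h, inv_smul_smul]
    subst hij
    have h1 : y.out⁻¹ * x.out ∈ U := by
      have h0 : y.out⁻¹ * x.out ∈ MulAction.stabilizer H (a i) := by
        show (y.out⁻¹ * x.out) • a i = a i
        rw [mul_smul, h, inv_smul_smul]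
      rwa [hU i] at h0
    have h2 : (y.out : H ⧸ U) = (x.out : H ⧸ U) := QuotientGroup.eq.mpr h1
    rw [QuotientGroup.out_eq', QuotientGroup.out_eq'] at h2
    rw [h2]⟩
  have hι : ∀ (h : H) (x : H ⧸ U) (i : Fin r), ι (h • x, i) = h • ι (x, i) := fun h x i => hout h x i
  have : Fintype (H ⧸ U) := Fintype.ofFinite _
  refine ⟨(Equiv.Perm.viaEmbeddingHom ι).comp (diagHom (H ⧸ U) (Fin r)), ?_, ?_, ?_⟩
  · apply (Equiv.Perm.viaEmbeddingHom_injective ι).comp
    intro σ τ h
    ext i
    have := congrArg (fun e : Equiv.Perm ((H ⧸ U) × Fin r) => (e ((1 : H) , i)).2) h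
    simp only [diagHom_apply] at this
    rw [this]
  · intro σ hσ
    rw [MonoidHom.comp_apply, sign_viaEmbeddingHom]
    show Equiv.Perm.sign (Equiv.prodCongrRight (fun _ => σ)) = 1
    rw [Equiv.Perm.sign_prodCongrRight]
    simp [hσ]
  · intro σ h z
    rw [MonoidHom.comp_apply, Equiv.Perm.viaEmbeddingHom_apply]
    by_cases hz : z ∈ Set.range ι
    · obtain ⟨⟨x, i⟩, rfl⟩ := hz
      rw [← hι, Equiv.Perm.viaEmbedding_apply, Equiv.Perm.viaEmbedding_apply, diagHom_apply,
        diagHom_apply, hι]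
    · have hz' : h • z ∉ Set.range ι := by
        rintro ⟨⟨x, i⟩, hx⟩
        apply hz
        refine ⟨(h⁻¹ • x, i), ?_⟩
        rw [hι, hx, inv_smul_smul]
      rw [Equiv.Perm.viaEmbedding_apply_of_notMem _ _ _ hz,
        Equiv.Perm.viaEmbedding_apply_of_notMem _ _ _ hz']

end Cfsg.Agent.Lib.Helper5.AltC
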