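import Cfsg.Agent.Lib.Helper1.Class2
import Cfsg.Agent.Lib.Helper22.Frat

set_option autoImplicit false

/-! Extraspecial groups of order `p³` and exponent `p²`: elementary facts. -/

namespace Cfsg.Agent.Lib.Helper5.ES

open Cfsg.Agent.Lib.Helper1 Cfsg.Agent.Lib.Helper22
open scoped commutatorElement

structure Pkg (p : ℕ) (Q : Type*) [Group Q] : Prop where
  q1 : ∀ x y : Q, (x * y) ^ p = x ^ p * y ^ p
  q2 : ∀ x : Q, x ^ p ∈ Subgroup.center Q
  q3 : ∃ a : Q, a ^ p ≠ 1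
  q4 : ∀ x y : Q, x ^ p = 1 → y ^ p = 1 → x * y = y * x
  q5 : ∀ x a : Q, x ^ p = 1 → a ^ p ≠ 1 → x * a = a * x → x ∈ Subgroup.center Q
  q6 : ∀ x y : Q, ⁅x, y⁆ ∈ Subgroup.center Q
  q7 : ∀ z ∈ Subgroup.center Q, z ≠ 1 → ∀ z' ∈ Subgroup.center Q, ∃ i : ℕ, z' = z ^ i
  q7' : ∀ z ∈ Subgroup.center Q, z ^ p = 1
  q8 : ∀ (x y : Q) (i : ℕ), ⁅x ^ i, y⁆ = ⁅x, y⁆ ^ i

theorem pkg {Q : Type*} [Group Q] [Finite Q] {p : ℕ} [Fact p.Prime] (hp : p ≠ 2)
    (hE : Cfsg.IsExtraspecial p Q) (hcard : Nat.card Q = p ^ 3) (hexp : Monoid.exponent Q = p ^ 2) :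
    Pkg p Q := by
  have hpp : p.Prime := Fact.out
  obtain ⟨⟨hP, hfr, hco⟩, hZ⟩ := hE
  have hcl : Class2 Q := class2_of_commutator_le_center hco.le
  have q7' : ∀ z ∈ Subgroup.center Q, z ^ p = 1 := by
    intro z hz
    have := pow_card_eq_one' (x := (⟨z, hz⟩ : Subgroup.center Q))
    rw [hZ] at this
    simpa using congrArg Subtype.val this
  have q1 : ∀ x y : Q, (x * y) ^ p = x ^ p * y ^ p := fun x y =>
    hcl.mul_pow_prime hpp hp x y (q7' _ (hcl y x))
  have q2 : ∀ x : Q, x ^ p ∈ Subgroup.center Q := fun x => hfr ▸ pow_mem_frattini hP x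
  have q3 : ∃ a : Q, a ^ p ≠ 1 := by
    by_contra hcon
    push Not at hcon
    have h1 := Monoid.exponent_dvd_of_forall_pow_eq_one hcon
    rw [hexp] at h1
    have h2 := Nat.le_of_dvd hpp.pos h1
    have h3 := hpp.two_le
    nlinarith
  obtain ⟨a₀, ha₀⟩ := q3
  let φ : Q →* Q := ⟨⟨fun x => x ^ p, one_pow p⟩, q1⟩
  have hφ : ∀ x, φ x = x ^ p := fun x => rfl
  have hrange : Nat.card φ.range = p := by
    have h1 : φ.range ≤ Subgroup.center Q := by
      rintro _ ⟨x, rfl⟩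
      exact q2 x
    have h2 := Subgroup.card_dvd_of_le h1
    rw [hZ] at h2
    rcases (Nat.dvd_prime hpp).mp h2 with h3 | h3
    · exfalso
      rw [Subgroup.card_eq_one] at h3
      have : φ a₀ ∈ φ.range := ⟨a₀, rfl⟩
      rw [h3, Subgroup.mem_bot] at this
      exact ha₀ this
    · exact h3
  have hidx : φ.ker.index = p := by rw [Subgroup.index_ker, hrange]
  have hker : Nat.card φ.ker = p ^ 2 := by
    have h1 := φ.ker.card_mul_index
    rw [hidx, hcard, pow_succ] at h1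
    exact Nat.eq_of_mul_eq_mul_right hpp.pos h1
  have q4 : ∀ x y : Q, x ^ p = 1 → y ^ p = 1 → x * y = y * x := by
    intro x y hx hy
    have := IsPGroup.commutative_of_card_eq_prime_sq hker (⟨x, hx⟩ : φ.ker) ⟨y, hy⟩
    exact congrArg Subtype.val this
  refine ⟨q1, q2, ⟨a₀, ha₀⟩, q4, ?_, hcl, ?_, q7', hcl.pow_left⟩
  · intro x a hx ha hxa
    have hle : φ.ker ≤ Subgroup.centralizer {x} := by
      intro y hy
      rw [Subgroup.mem_centralizer_singleton_iff]
      exact q4 y x hy hx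
    have haK : a ∈ Subgroup.centralizer {x} := by
      rw [Subgroup.mem_centralizer_singleton_iff]; exact hxa.symm
    have h1 := Subgroup.relIndex_mul_index hle
    rw [hidx] at h1
    have h2 : (Subgroup.centralizer {x}).index ∣ p := Dvd.intro_left _ h1
    rcases (Nat.dvd_prime hpp).mp h2 with h3 | h3
    · rw [Subgroup.index_eq_one] at h3
      rw [Subgroup.mem_center_iff]
      intro g
      have : g ∈ Subgroup.centralizer {x} := by rw [h3]; trivial
      exact Subgroup.mem_centralizer_singleton_iff.mp this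
    · exfalso
      rw [h3] at h1
      have h4 : φ.ker.relIndex (Subgroup.centralizer {x}) = 1 := by
        have := Nat.eq_of_mul_eq_mul_right hpp.pos (h1.trans (one_mul p).symm)
        exact this
      rw [Subgroup.relIndex_eq_one] at h4
      exact ha (h4 haK)
  · intro z hz hz1 z' hz'
    have h1 : (⟨z', hz'⟩ : Subgroup.center Q) ∈ Subgroup.zpowers (⟨z, hz⟩ : Subgroup.center Q) :=
      mem_zpowers_of_prime_card hZ (fun h => hz1 (congrArg Subtype.val h))
    rw [← mem_powers_iff_mem_zpowers] at h1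
    obtain ⟨i, hi⟩ := h1
    exact ⟨i, (congrArg Subtype.val hi).symm⟩

theorem pow_gen {G : Type*} [Group G] {p : ℕ} (hpp : p.Prime) (y : G) (hy : y ^ p = 1) (i : ℕ)
    (hne : y ^ i ≠ 1) : ∃ j : ℕ, y = (y ^ i) ^ j := by
  have hcop : Nat.Coprime i p := by
    rw [Nat.coprime_comm, Nat.Prime.coprime_iff_not_dvd hpp]
    rintro ⟨k, rfl⟩
    exact hne (by rw [pow_mul, hy, one_pow])
  obtain ⟨m, -, hm⟩ := Nat.exists_mul_mod_eq_one_of_coprime hcop hpp.one_lt
  refine ⟨m, ?_⟩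
  rw [← pow_mul, pow_eq_pow_mod _ hy, hm, pow_one]

end Cfsg.Agent.Lib.Helper5.ES
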