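import Mathlib
import Cfsg.Agent.Lib.Helper5.Qd9
import Cfsg.Agent.Lib.Helper5.Dk9
import Cfsg.Agent.Lib.Helper1.CoprimeSylow

set_option autoImplicit false
set_option linter.unusedSimpArgs false

/-! In `Qd(p)` the normalizer of a nontrivial characteristic subgroup of a Sylow `p`-subgroup is the
normalizer of the Sylow subgroup. -/

namespace Cfsg.Agent.Lib.Helper5.Dk

variable {p : ℕ} [hpF : Fact p.Prime] {X : Type*} [Group X]

namespace QdC

variable (C : QdC p X)

/-- conjugated coordinates -/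
def conj (g : X) : QdC p X where
  m A a b := g * C.m A a b * g⁻¹
  mul A B a b c d := by
    rw [← C.mul]; group
  surj x := by
    obtain ⟨A, a, b, h⟩ := C.surj (g⁻¹ * x * g)
    refine ⟨A, a, b, ?_⟩
    rw [← h]; group
  inj h := C.inj (mul_left_cancel (mul_right_cancel h))

theorem mem_tsub_iff {x : X} : x ∈ C.tsub ↔ ∃ i, C.lin x = xx i := by
  constructor
  · rintro ⟨i, a, b, rfl⟩
    exact ⟨i, C.lin_m _ _ _⟩
  · rintro ⟨i, hi⟩
    obtain ⟨A, a, b, rfl⟩ := C.surj x
    rw [lin_m] at hi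
    exact ⟨i, a, b, by rw [hi]⟩

theorem mem_conj_tsub_iff (g x : X) : x ∈ (C.conj g).tsub ↔ g⁻¹ * x * g ∈ C.tsub := by
  constructor
  · rintro ⟨i, a, b, rfl⟩
    refine ⟨i, a, b, ?_⟩
    show g⁻¹ * (g * C.m (xx i) a b * g⁻¹) * g = _
    group
  · rintro ⟨i, a, b, h⟩
    refine ⟨i, a, b, ?_⟩
    show x = g * C.m (xx i) a b * g⁻¹
    rw [← h]; group

theorem mem_normalizer_tsub_iff [Finite X] (A : S2 (ZMod p)) (a b : ZMod p) :
    C.m A a b ∈ Subgroup.normalizer (C.tsub : Set X) ↔ ga A = 0 := by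
  constructor
  · intro h
    have h1 : C.m (xx 1) 0 0 ∈ C.tsub := ⟨1, 0, 0, rfl⟩
    have h2 := (Subgroup.mem_normalizer_iff.mp h _).mp h1
    obtain ⟨i, hi⟩ := C.mem_tsub_iff.mp h2
    rw [map_mul, map_mul, map_inv, lin_m, lin_m] at hi
    have h3 := congrArg ga hi
    rw [ga_conj_xx'', ga_xx] at h3
    have : ga A * ga A = 0 := by linear_combination -h3
    exact mul_self_eq_zero.mp this
  · intro h
    apply Cfsg.Agent.Lib.Helper1.mem_normalizer_of_conj_mem
    intro u hu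
    obtain ⟨i, hi⟩ := C.mem_tsub_iff.mp hu
    rw [mem_tsub_iff]
    refine ⟨be (A * xx i * A⁻¹), ?_⟩
    rw [map_mul, map_mul, map_inv, lin_m, hi]
    apply eq_xx_of_tr
    · rw [tr_conj]; simp [tr]; norm_num
    · rw [ga_conj_xx'', h]; ring

theorem normalizer_char [Finite X] (T : Subgroup ↥C.tsub) (hT : T ≠ ⊥) (hTc : T.Characteristic) :
    Subgroup.normalizer ((T.map C.tsub.subtype : Subgroup X) : Set X) =
      Subgroup.normalizer (C.tsub : Set X) ∧ Subgroup.normalizer (C.tsub : Set X) ≠ ⊤ := by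
  have hinv := Subgroup.characteristic_iff_map_eq.mp hTc
  have hz := C.z_mem T hT hinv
  constructor
  · apply le_antisymm _ (Cfsg.Agent.Lib.Helper1.normalizer_le_normalizer_map_char T)
    intro n hn
    obtain ⟨A, a', b', rfl⟩ := C.surj n
    rw [mem_normalizer_tsub_iff]
    have hzX : C.m 1 1 0 ∈ T.map C.tsub.subtype := by
      refine ⟨_, hz, ?_⟩
      show C.m (xx 0) 1 0 = _
      rw [xx_zero]
    have h1 := (Subgroup.mem_normalizer_iff.mp hn _).mp hzX
    rw [conj_trans] at h1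
    have h2 : C.hc 0 (al A) (ga A) ∈ T := by
      obtain ⟨q, hq, hq'⟩ := h1
      have : q = C.hc 0 (al A) (ga A) := by
        apply Subtype.ext
        show (q : X) = C.m (xx 0) _ _
        rw [xx_zero]
        refine hq'.trans ?_
        apply C.m_congr rfl <;> ring
      rwa [← this]
    have h3 : C.psi (C.hc 0 (al A) (ga A)) ∈ T.map C.psi.toMonoidHom := ⟨_, h2, rfl⟩
    rw [hinv, psi_hc] at h3
    have h4 : C.m (xx (ga A)) (0 * ga A - al A) 0 ∈ T.map C.tsub.subtype := ⟨_, h3, rfl⟩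
    have h5 := (Subgroup.mem_normalizer_iff.mp hn _).mp h4
    obtain ⟨q, -, hq⟩ := h5
    obtain ⟨i, hi⟩ := C.mem_tsub_iff.mp q.2
    have h6 : C.lin (q : X) = _ := congrArg C.lin hq
    rw [hi, map_mul, map_mul, map_inv, lin_m, lin_m] at h6
    have h7 := congrArg ga h6
    rw [ga_conj_xx'', ga_xx] at h7
    have h8 : ga A ^ 3 = 0 := by linear_combination h7
    exact pow_eq_zero_iff (by norm_num) |>.mp h8
  · intro htop
    have h1 : C.m (mk4 0 (-1) 1 0 (by ring)) 0 0 ∈ Subgroup.normalizer (C.tsub : Set X) := by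
      rw [htop]; trivial
    rw [mem_normalizer_tsub_iff] at h1
    simp at h1

theorem normalizer_char' [Finite X] (S₀ : Subgroup X) (h : S₀ = C.tsub) (T : Subgroup ↥S₀)
    (hT : T ≠ ⊥) (hTc : T.Characteristic) :
    Subgroup.normalizer ((T.map S₀.subtype : Subgroup X) : Set X) =
      Subgroup.normalizer (S₀ : Set X) ∧ Subgroup.normalizer (S₀ : Set X) ≠ ⊤ := by
  subst h
  exact C.normalizer_char T hT hTc

open Pointwise in
theorem exists_conj_tsub [Finite X] (S : Sylow p X) : ∃ g : X, (S : Subgroup X) = (C.conj g).tsub := by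
  obtain ⟨g, hg⟩ := MulAction.exists_smul_eq X C.syl S
  refine ⟨g, ?_⟩
  rw [← hg, Sylow.coe_subgroup_smul]
  ext x
  rw [mem_conj_tsub_iff, Subgroup.mem_pointwise_smul_iff_inv_smul_mem]
  show (MulAut.conj g)⁻¹ • x ∈ C.tsub ↔ _
  rw [← map_inv, MulAut.smul_def, MulAut.conj_apply, inv_inv]

end QdC

end Cfsg.Agent.Lib.Helper5.Dk
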