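import Mathlib
import Cfsg.Agent.Lib.Helper5.AltP
import Cfsg.Agent.Lib.Helper13.SL2

set_option autoImplicit false
set_option linter.unusedSimpArgs false

/-! `Qd(2)` is the symmetric group of degree four. -/

namespace Cfsg.Agent.Lib.Helper5.AltP

open Cfsg.Agent.Lib.Helper5.Dk

theorem toPermHom_injective {X : Type*} [Group X] (L : Subgroup X)
    (hcore : ∀ x, (∀ g : X, g * x * g⁻¹ ∈ L) → x = 1) :
    Function.Injective (MulAction.toPermHom X (X ⧸ L)) := by
  rw [injective_iff_map_eq_one]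
  intro x hx
  apply hcore
  intro g
  have h1 : (MulAction.toPermHom X (X ⧸ L) x) ((g⁻¹ : X) : X ⧸ L) = ((g⁻¹ : X) : X ⧸ L) := by
    rw [hx]; rfl
  have h2 : ((x * g⁻¹ : X) : X ⧸ L) = ((g⁻¹ : X) : X ⧸ L) := h1
  rw [eq_comm, QuotientGroup.eq] at h2
  simpa [mul_assoc] using h2

theorem card_qdc {p : ℕ} [hpF : Fact p.Prime] {X : Type*} [Group X] (C : QdC p X) :
    Nat.card X = p * (p ^ 2 - 1) * (p * p) := by
  have e : S2 (ZMod p) × ZMod p × ZMod p ≃ X :=
    Equiv.ofBijective (fun t => C.m t.1 t.2.1 t.2.2) ⟨by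
      rintro ⟨A, a, b⟩ ⟨B, c, d⟩ h
      obtain ⟨h1, h2, h3⟩ := C.inj h
      simp only at h1 h2 h3
      rw [h1, h2, h3], by
      intro x
      obtain ⟨A, a, b, rfl⟩ := C.surj x
      exact ⟨(A, a, b), rfl⟩⟩
  rw [← Nat.card_congr e, Nat.card_prod, Nat.card_prod, Nat.card_zmod]
  have := Cfsg.Agent.Lib.Helper13.card_SL2 (F := ZMod p)
  rw [ZMod.card] at this
  rw [← this]

theorem qd_two_equiv {X : Type*} [Group X] [Finite X] [Fact (Nat.Prime 2)] (C : QdC 2 X) :
    Nonempty (X ≃* Equiv.Perm (Fin 4)) := by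
  have hinj := toPermHom_injective (lsub C) (lsub_core C)
  have hidx := lsub_index_le C
  have hcard : Nat.card X = 24 := by rw [card_qdc C]; norm_num
  have h1 : Nat.card X ≤ Nat.card (Equiv.Perm (X ⧸ lsub C)) := Nat.card_le_card_of_injective _ hinj
  rw [Nat.card_perm, hcard] at h1
  have h4 : Nat.card (X ⧸ lsub C) = 4 := by
    have h2 : Nat.card (X ⧸ lsub C) ≤ 4 := hidx
    generalize Nat.card (X ⧸ lsub C) = k at h1 h2
    interval_cases k <;> first | rfl | (exfalso; revert h1; decide)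
  have hbij : Function.Bijective (MulAction.toPermHom X (X ⧸ lsub C)) := by
    apply hinj.bijective_of_nat_card_le
    rw [Nat.card_perm, h4, hcard]
    decide
  have e2 : (X ⧸ lsub C) ≃ Fin 4 := by
    have : Fintype (X ⧸ lsub C) := Fintype.ofFinite _
    apply Fintype.equivFinOfCardEq
    rw [← Nat.card_eq_fintype_card, h4]
  exact ⟨(MulEquiv.ofBijective _ hbij).trans e2.permCongrHom⟩

end Cfsg.Agent.Lib.Helper5.AltP
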