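import Mathlib
import Cfsg.Agent.Lib.Helper5.Qd12
import Cfsg.Agent.Lib.Helper16.Frat
import Cfsg.Agent.Lib.Helper1.PGrp
import Cfsg.Prelude.Def_Transfer

set_option autoImplicit false
set_option linter.unusedSimpArgs false

/-! The Sylow `p`-subgroups of `Qd(p)` are extraspecial of order `p³` and exponent `p`. -/

namespace Cfsg.Agent.Lib.Helper5.Dk

variable {p : ℕ} [hpF : Fact p.Prime] {X : Type*} [Group X]

namespace QdC

variable (C : QdC p X)

theorem hc_pow' (i a b : ZMod p) (n : ℕ) :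
    (C.hc i a b) ^ n = C.hc (n * i) (n * a + (n.choose 2 : ℕ) * (i * b)) (n * b) := by
  induction n with
  | zero =>
    rw [pow_zero, ← hc_one]
    apply C.hc_congr <;> simp
  | succ n ih =>
    rw [pow_succ, ih, hc_mul]
    have e : ((n + 1).choose 2 : ℕ) = n + n.choose 2 := by
      rw [Nat.choose_succ_succ' n 1, Nat.choose_one_right]
    apply C.hc_congr
    · push_cast; ring
    · rw [e]; push_cast; ring
    · push_cast; ring

theorem hc_pow_p (hp2 : p ≠ 2) (x : ↥C.tsub) : x ^ p = 1 := by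
  obtain ⟨i, a, b, rfl⟩ := C.hc_surj x
  rw [hc_pow', ← hc_one]
  have h : ((p.choose 2 : ℕ) : ZMod p) = 0 := by
    rw [ZMod.natCast_eq_zero_iff]
    apply hpF.out.dvd_choose_self (by norm_num)
    exact lt_of_le_of_ne hpF.out.two_le (Ne.symm hp2)
  apply C.hc_congr <;> simp [h]

theorem mem_center_iff (x : ↥C.tsub) : x ∈ Subgroup.center ↥C.tsub ↔ ∃ c, x = C.hc 0 c 0 := by
  constructor
  · intro hx
    obtain ⟨i, a, b, rfl⟩ := C.hc_surj x
    rw [Subgroup.mem_center_iff] at hx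
    have h1 := hx (C.hc 1 0 0)
    have h2 := hx (C.hc 0 0 1)
    rw [hc_mul, hc_mul] at h1 h2
    have e1 := (C.hc_inj h1).2.1
    have e2 := (C.hc_inj h2).2.1
    have hb : b = 0 := by linear_combination e1
    have hi : i = 0 := by linear_combination -e2
    exact ⟨a, by rw [hb, hi]⟩
  · rintro ⟨c, rfl⟩
    rw [Subgroup.mem_center_iff]
    intro y
    obtain ⟨j, d, e, rfl⟩ := C.hc_surj y
    rw [hc_mul, hc_mul]
    apply C.hc_congr <;> ring

theorem commutator_eq_center : commutator ↥C.tsub = Subgroup.center ↥C.tsub := by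
  apply le_antisymm
  · rw [commutator_def, Subgroup.commutator_le]
    intro x _ y _
    obtain ⟨i, a, b, rfl⟩ := C.hc_surj x
    obtain ⟨j, c, d, rfl⟩ := C.hc_surj y
    rw [commutatorElement_def, hc_comm, mem_center_iff]
    exact ⟨_, rfl⟩
  · intro x hx
    obtain ⟨c, rfl⟩ := (C.mem_center_iff x).mp hx
    have h := Subgroup.commutator_mem_commutator (Subgroup.mem_top (C.hc c 0 0))
      (Subgroup.mem_top (C.hc 0 0 1))
    rw [commutatorElement_def, hc_comm] at h
    have e : C.hc 0 (c * 1 - 0 * 0) 0 = C.hc 0 c 0 := C.hc_congr rfl (by ring) rfl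
    rw [e] at h
    exact h

theorem card_center : Nat.card (Subgroup.center ↥C.tsub) = p := by
  have e : ZMod p ≃ Subgroup.center ↥C.tsub :=
    Equiv.ofBijective (fun c => ⟨C.hc 0 c 0, (C.mem_center_iff _).mpr ⟨c, rfl⟩⟩) ⟨by
      intro c d h
      exact (C.hc_inj (congrArg Subtype.val h)).2.1, by
      rintro ⟨x, hx⟩
      obtain ⟨c, rfl⟩ := (C.mem_center_iff x).mp hx
      exact ⟨c, rfl⟩⟩
  rw [← Nat.card_congr e, Nat.card_zmod]

theorem card_tsub : Nat.card ↥C.tsub = p ^ 3 := by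
  rw [← Nat.card_congr C.e3, Nat.card_prod, Nat.card_prod, Nat.card_zmod]
  ring

theorem extraspecial [Finite X] (hp2 : p ≠ 2) :
    Cfsg.IsExtraspecial p ↥C.tsub ∧ Nat.card ↥C.tsub = p ^ 3 ∧ Monoid.exponent ↥C.tsub = p := by
  refine ⟨⟨⟨C.tsub_isPGroup, le_antisymm ?_ ?_, C.commutator_eq_center⟩, C.card_center⟩,
    C.card_tsub, ?_⟩
  · apply Cfsg.Agent.Lib.Helper16.frattini_le_of_elemAb (p := p) C.commutator_eq_center.le
    intro x
    rw [C.hc_pow_p hp2]
    exact Subgroup.one_mem _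
  · rw [← C.commutator_eq_center]
    exact (Cfsg.Agent.Lib.Helper1.pgroup_frattini C.tsub_isPGroup).1
  · have hd : Monoid.exponent ↥C.tsub ∣ p :=
      Monoid.exponent_dvd_of_forall_pow_eq_one (C.hc_pow_p hp2)
    rcases (Nat.dvd_prime hpF.out).mp hd with h1 | h1
    · exfalso
      rw [Monoid.exp_eq_one_iff] at h1
      have := C.hc_inj (Subsingleton.elim (C.hc 0 1 0) (C.hc 0 0 0))
      exact one_ne_zero this.2.1
    · exact h1

theorem extraspecial' [Finite X] (hp2 : p ≠ 2) (S₀ : Subgroup X) (h : S₀ = C.tsub) :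
    Cfsg.IsExtraspecial p ↥S₀ ∧ Nat.card ↥S₀ = p ^ 3 ∧ Monoid.exponent ↥S₀ = p := by
  subst h
  exact C.extraspecial hp2

end QdC

end Cfsg.Agent.Lib.Helper5.Dk
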